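import Mathlib
import Cfsg.Agent.Lib.Helper48.S4415.RedDefs

/-!
# S4415, package [R-IRR]

`b` fixes `C_E(R)` pointwise and `R ⊔ ⟨b⟩` is irreducible on `[E, R]` (from the weight frame).
-/

set_option autoImplicit false

namespace Cfsg.Agent.Lib.Helper37.S4415

open Cfsg.Agent.Lib.Helper78.S4415 Cfsg.Agent.Lib.Helper48.S4415

open scoped commutatorElement

universe u v

section
variable {S : Type u} [Group S] {E : Type v} [AddCommGroup E] [Module (ZMod 3) E]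

theorem rho_mul (ρ : Representation (ZMod 3) S E) (g h : S) (v : E) :
    ρ (g * h) v = ρ g (ρ h v) := by
  rw [map_mul]; rfl

theorem rho_one (ρ : Representation (ZMod 3) S E) (v : E) : ρ 1 v = v := by
  rw [map_one]; rfl

theorem rho_inv_self (ρ : Representation (ZMod 3) S E) (g : S) (v : E) :
    ρ g⁻¹ (ρ g v) = v := by
  rw [← rho_mul, inv_mul_cancel, rho_one]

theorem rho_self_inv (ρ : Representation (ZMod 3) S E) (g : S) (v : E) :
    ρ g (ρ g⁻¹ v) = v := by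
  rw [← rho_mul, mul_inv_cancel, rho_one]

/-- the elements of `H` acting trivially on `E / N` -/
def trivModSub (ρ : Representation (ZMod 3) S E) (H : Subgroup S) (N : Submodule (ZMod 3) E)
    (hN : ∀ r ∈ H, ∀ v ∈ N, ρ r v ∈ N) : Subgroup S where
  carrier := {g | g ∈ H ∧ ∀ y : E, ρ g y - y ∈ N}
  mul_mem' := by
    rintro g h ⟨hg, hg'⟩ ⟨hh, hh'⟩
    refine ⟨H.mul_mem hg hh, fun y => ?_⟩
    have : ρ (g * h) y - y = ρ g (ρ h y - y) + (ρ g y - y) := by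
      rw [rho_mul, map_sub]; abel
    rw [this]
    exact N.add_mem (hN g hg _ (hh' y)) (hg' y)
  one_mem' := ⟨H.one_mem, fun y => by rw [rho_one, sub_self]; exact N.zero_mem⟩
  inv_mem' := by
    rintro g ⟨hg, hg'⟩
    refine ⟨H.inv_mem hg, fun y => ?_⟩
    have : ρ g⁻¹ y - y = - ρ g⁻¹ (ρ g y - y) := by
      rw [map_sub, rho_inv_self]; abel
    rw [this]
    exact N.neg_mem (hN g⁻¹ (H.inv_mem hg) _ (hg' y))

theorem mem_trivModSub (ρ : Representation (ZMod 3) S E) (H : Subgroup S)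
    (N : Submodule (ZMod 3) E) (hN : ∀ r ∈ H, ∀ v ∈ N, ρ r v ∈ N) (g : S) :
    g ∈ trivModSub ρ H N hN ↔ g ∈ H ∧ ∀ y : E, ρ g y - y ∈ N := Iff.rfl

/-- the elements of `H` fixing `N` pointwise -/
def fixSub (ρ : Representation (ZMod 3) S E) (H : Subgroup S) (N : Submodule (ZMod 3) E) :
    Subgroup S where
  carrier := {g | g ∈ H ∧ ∀ y ∈ N, ρ g y = y}
  mul_mem' := by
    rintro g h ⟨hg, hg'⟩ ⟨hh, hh'⟩
    refine ⟨H.mul_mem hg hh, fun y hy => ?_⟩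
    rw [rho_mul, hh' y hy, hg' y hy]
  one_mem' := ⟨H.one_mem, fun y _ => rho_one ρ y⟩
  inv_mem' := by
    rintro g ⟨hg, hg'⟩
    refine ⟨H.inv_mem hg, fun y hy => ?_⟩
    have := rho_inv_self ρ g y
    rw [hg' y hy] at this
    exact this

theorem mem_fixSub (ρ : Representation (ZMod 3) S E) (H : Subgroup S)
    (N : Submodule (ZMod 3) E) (g : S) :
    g ∈ fixSub ρ H N ↔ g ∈ H ∧ ∀ y ∈ N, ρ g y = y := Iff.rfl

theorem le_of_comm {R X : Subgroup S} {b : S} (hb : b ∈ X)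
    (hnorm : ∀ r ∈ R, ∀ g ∈ X, r * g * r⁻¹ ∈ X)
    (hcomm : ⁅R, Subgroup.zpowers b⁆ = R) : R ≤ X := by
  rw [← hcomm, Subgroup.commutator_le]
  intro r hr h hh
  have hhX : h ∈ X := (Subgroup.zpowers_le.mpr hb) hh
  have : ⁅r, h⁆ = (r * h * r⁻¹) * h⁻¹ := by rw [commutatorElement_def]
  rw [this]
  exact X.mul_mem (hnorm r hr h hhX) (X.inv_mem hhX)

end

theorem pkgIrr : PkgIrr.{u, v} := by
  intro S _ _ E _ _ _ ρ R b Q hFrame hQR hcomm hinf
  have h4 : (4 : ZMod 3) = 1 := by decide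
  haveI : Fact (Nat.Prime 3) := ⟨by norm_num⟩
  obtain ⟨q₁, q₂, w₁, w₂, w₃, hq₁, hq₂, _hq₁1, _hq₂1, _hne, _hcommq, _hall, _hbq₁, _hbq₂,
    hb1, hb2, hb3, _hw₁, h11, h12, h13, h21, h22, h23, hdec, huniq⟩ := hFrame
  have hq₁R : q₁ ∈ R := hQR hq₁
  have hq₂R : q₂ ∈ R := hQR hq₂
  have hRH : R ≤ R ⊔ Subgroup.zpowers b := le_sup_left
  have hbH : b ∈ R ⊔ Subgroup.zpowers b :=
    (le_sup_right : Subgroup.zpowers b ≤ R ⊔ Subgroup.zpowers b) (Subgroup.mem_zpowers b)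
  -- the action of q₁, q₂, b on a decomposed vector
  have act1 : ∀ (c : E) (a₁ a₂ a₃ : ZMod 3), ρ q₁ c = c →
      ρ q₁ (c + a₁ • w₁ + a₂ • w₂ + a₃ • w₃) = c + a₁ • w₁ - a₂ • w₂ - a₃ • w₃ := by
    intro c a₁ a₂ a₃ hc
    rw [map_add, map_add, map_add, map_smul, map_smul, map_smul, hc, h11, h12, h13]
    simp only [smul_neg]; abel
  have act2 : ∀ (c : E) (a₁ a₂ a₃ : ZMod 3), ρ q₂ c = c →
      ρ q₂ (c + a₁ • w₁ + a₂ • w₂ + a₃ • w₃) = c - a₁ • w₁ + a₂ • w₂ - a₃ • w₃ := by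
    intro c a₁ a₂ a₃ hc
    rw [map_add, map_add, map_add, map_smul, map_smul, map_smul, hc, h21, h22, h23]
    simp only [smul_neg]; abel
  have actb : ∀ (c : E) (a₁ a₂ a₃ : ZMod 3), ρ b c = c →
      ρ b (c + a₁ • w₁ + a₂ • w₂ + a₃ • w₃) = c + a₁ • w₂ + a₂ • w₃ + a₃ • w₁ := by
    intro c a₁ a₂ a₃ hc
    rw [map_add, map_add, map_add, map_smul, map_smul, map_smul, hc, hb1, hb2, hb3]
  refine ⟨?_, ?_⟩
  · -- (i)
    intro x hx
    obtain ⟨c, a₁, a₂, a₃, hxe, hc1, hc2, hcb⟩ := hdec x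
    have hx1 : ρ q₁ x = x := hx q₁ hq₁R
    have hx2 : ρ q₂ x = x := hx q₂ hq₂R
    have hz1 : ρ q₁ (x - c) = x - c := by rw [map_sub, hx1, hc1]
    have hz2 : ρ q₂ (x - c) = x - c := by rw [map_sub, hx2, hc2]
    have hz0 : (x - c) + (-a₁) • w₁ + (-a₂) • w₂ + (-a₃) • w₃ = 0 := by
      rw [hxe]; simp only [neg_smul]; abel
    have hz := (huniq (x - c) (-a₁) (-a₂) (-a₃) hz1 hz2 hz0).1
    have hxc : x = c := sub_eq_zero.mp hz
    rw [hxc]; exact hcb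
  · -- (ii)
    intro N hNle hNinv
    -- components
    have hcomp : ∀ (c : E) (a₁ a₂ a₃ : ZMod 3), ρ q₁ c = c → ρ q₂ c = c →
        c + a₁ • w₁ + a₂ • w₂ + a₃ • w₃ ∈ N → a₁ • w₁ ∈ N ∧ a₂ • w₂ ∈ N ∧ a₃ • w₃ ∈ N := by
      intro c a₁ a₂ a₃ hc1 hc2 hxN
      set x := c + a₁ • w₁ + a₂ • w₂ + a₃ • w₃ with hxdef
      have e1 : ρ q₁ x = c + a₁ • w₁ - a₂ • w₂ - a₃ • w₃ := act1 c a₁ a₂ a₃ hc1
      have e2 : ρ q₂ x = c - a₁ • w₁ + a₂ • w₂ - a₃ • w₃ := act2 c a₁ a₂ a₃ hc2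
      have m1 : ρ q₁ x ∈ N := hNinv q₁ (hRH hq₁R) x hxN
      have m2 : ρ q₂ x ∈ N := hNinv q₂ (hRH hq₂R) x hxN
      -- y₁ = x - q₁ x = 2 a₂ w₂ + 2 a₃ w₃ ; y₂ = x - q₂ x = 2 a₁ w₁ + 2 a₃ w₃
      have y1 : x - ρ q₁ x ∈ N := N.sub_mem hxN m1
      have y2 : x - ρ q₂ x ∈ N := N.sub_mem hxN m2
      have ey1 : x - ρ q₁ x = (0 : E) + (0 : ZMod 3) • w₁ + (a₂ + a₂) • w₂ + (a₃ + a₃) • w₃ := by
        rw [e1, hxdef]; module
      have ey2 : x - ρ q₂ x = (0 : E) + (a₁ + a₁) • w₁ + (0 : ZMod 3) • w₂ + (a₃ + a₃) • w₃ := by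
        rw [e2, hxdef]; module
      have z0 : ρ q₁ (0 : E) = 0 := map_zero _
      have z0' : ρ q₂ (0 : E) = 0 := map_zero _
      have f1 : ρ q₂ (x - ρ q₁ x) = (0 : E) - (0 : ZMod 3) • w₁ + (a₂ + a₂) • w₂ - (a₃ + a₃) • w₃ := by
        rw [ey1]; exact act2 0 0 (a₂ + a₂) (a₃ + a₃) z0'
      have f2 : ρ q₁ (x - ρ q₂ x) = (0 : E) + (a₁ + a₁) • w₁ - (0 : ZMod 3) • w₂ - (a₃ + a₃) • w₃ := by
        rw [ey2]; exact act1 0 (a₁ + a₁) 0 (a₃ + a₃) z0
      have n1 : ρ q₂ (x - ρ q₁ x) ∈ N := hNinv q₂ (hRH hq₂R) _ y1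
      have n2 : ρ q₁ (x - ρ q₂ x) ∈ N := hNinv q₁ (hRH hq₁R) _ y2
      refine ⟨?_, ?_, ?_⟩
      · have : a₁ • w₁ = (x - ρ q₂ x) + ρ q₁ (x - ρ q₂ x) := by
          rw [f2, ey2]
          have : (0 : E) + (a₁ + a₁) • w₁ + (0 : ZMod 3) • w₂ + (a₃ + a₃) • w₃ +
              ((0 : E) + (a₁ + a₁) • w₁ - (0 : ZMod 3) • w₂ - (a₃ + a₃) • w₃) = (4 : ZMod 3) • (a₁ • w₁) := by
            module
          rw [this, h4, one_smul]
        rw [this]; exact N.add_mem y2 n2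
      · have : a₂ • w₂ = (x - ρ q₁ x) + ρ q₂ (x - ρ q₁ x) := by
          rw [f1, ey1]
          have : (0 : E) + (0 : ZMod 3) • w₁ + (a₂ + a₂) • w₂ + (a₃ + a₃) • w₃ +
              ((0 : E) - (0 : ZMod 3) • w₁ + (a₂ + a₂) • w₂ - (a₃ + a₃) • w₃) = (4 : ZMod 3) • (a₂ • w₂) := by
            module
          rw [this, h4, one_smul]
        rw [this]; exact N.add_mem y1 n1
      · have : a₃ • w₃ = (x - ρ q₁ x) - ρ q₂ (x - ρ q₁ x) := by
          rw [f1, ey1]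
          have : (0 : E) + (0 : ZMod 3) • w₁ + (a₂ + a₂) • w₂ + (a₃ + a₃) • w₃ -
              ((0 : E) - (0 : ZMod 3) • w₁ + (a₂ + a₂) • w₂ - (a₃ + a₃) • w₃) = (4 : ZMod 3) • (a₃ • w₃) := by
            module
          rw [this, h4, one_smul]
        rw [this]; exact N.sub_mem y1 n1
    by_cases hw : w₁ ∈ N
    · right
      have hw2 : w₂ ∈ N := by rw [← hb1]; exact hNinv b hbH w₁ hw
      have hw3 : w₃ ∈ N := by rw [← hb2]; exact hNinv b hbH w₂ hw2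
      have hbmod : ∀ y : E, ρ b y - y ∈ N := by
        intro y
        obtain ⟨c, a₁, a₂, a₃, hye, -, -, hcb⟩ := hdec y
        have : ρ b y - y = a₁ • w₂ + a₂ • w₃ + a₃ • w₁ - a₁ • w₁ - a₂ • w₂ - a₃ • w₃ := by
          rw [hye, actb c a₁ a₂ a₃ hcb]; abel
        rw [this]
        exact N.sub_mem (N.sub_mem (N.sub_mem (N.add_mem (N.add_mem (N.smul_mem _ hw2)
          (N.smul_mem _ hw3)) (N.smul_mem _ hw)) (N.smul_mem _ hw)) (N.smul_mem _ hw2))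
          (N.smul_mem _ hw3)
      have hRX : R ≤ trivModSub ρ (R ⊔ Subgroup.zpowers b) N hNinv := by
        refine le_of_comm (b := b) ((mem_trivModSub ρ _ N hNinv b).mpr ⟨hbH, hbmod⟩) ?_ hcomm
        intro r hr g hgX
        obtain ⟨hg, hg'⟩ := (mem_trivModSub ρ _ N hNinv g).mp hgX
        have hrH := hRH hr
        refine (mem_trivModSub ρ _ N hNinv _).mpr
          ⟨Subgroup.mul_mem _ (Subgroup.mul_mem _ hrH hg) (Subgroup.inv_mem _ hrH), fun y => ?_⟩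
        have : ρ (r * g * r⁻¹) y - y = ρ r (ρ g (ρ r⁻¹ y) - ρ r⁻¹ y) := by
          rw [rho_mul, rho_mul, map_sub, rho_self_inv]
        rw [this]
        exact hNinv r hrH _ (hg' _)
      apply le_antisymm hNle
      unfold movR
      rw [Submodule.span_le]
      rintro w ⟨r, hr, v', rfl⟩
      exact ((mem_trivModSub ρ _ N hNinv r).mp (hRX hr)).2 v'
    · left
      have hfixb : ∀ x ∈ N, ρ b x = x := by
        intro x hxN
        obtain ⟨c, a₁, a₂, a₃, hxe, hc1, hc2, hcb⟩ := hdec x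
        have hxN' : c + a₁ • w₁ + a₂ • w₂ + a₃ • w₃ ∈ N := hxe ▸ hxN
        obtain ⟨k1, k2, k3⟩ := hcomp c a₁ a₂ a₃ hc1 hc2 hxN'
        have ha1 : a₁ = 0 := by
          by_contra hne
          apply hw
          have := N.smul_mem a₁⁻¹ k1
          rwa [inv_smul_smul₀ hne] at this
        have ha2 : a₂ = 0 := by
          by_contra hne
          apply hw
          have hw2 : w₂ ∈ N := by
            have := N.smul_mem a₂⁻¹ k2
            rwa [inv_smul_smul₀ hne] at this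
          have hw3 : w₃ ∈ N := by rw [← hb2]; exact hNinv b hbH w₂ hw2
          rw [← hb3]; exact hNinv b hbH w₃ hw3
        have ha3 : a₃ = 0 := by
          by_contra hne
          apply hw
          have hw3 : w₃ ∈ N := by
            have := N.smul_mem a₃⁻¹ k3
            rwa [inv_smul_smul₀ hne] at this
          rw [← hb3]; exact hNinv b hbH w₃ hw3
        have hxc : x = c := by
          rw [hxe, ha1, ha2, ha3]; simp
        rw [hxc]; exact hcb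
      have hRX : R ≤ fixSub ρ (R ⊔ Subgroup.zpowers b) N := by
        refine le_of_comm (b := b) ((mem_fixSub ρ _ N b).mpr ⟨hbH, hfixb⟩) ?_ hcomm
        intro r hr g hgX
        obtain ⟨hg, hg'⟩ := (mem_fixSub ρ _ N g).mp hgX
        have hrH := hRH hr
        refine (mem_fixSub ρ _ N _).mpr
          ⟨Subgroup.mul_mem _ (Subgroup.mul_mem _ hrH hg) (Subgroup.inv_mem _ hrH),
          fun y hy => ?_⟩
        have hy' : ρ r⁻¹ y ∈ N := hNinv r⁻¹ (Subgroup.inv_mem _ hrH) y hy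
        rw [rho_mul, rho_mul, hg' _ hy', rho_self_inv]
      rw [eq_bot_iff, ← hinf]
      intro x hxN
      refine ⟨hNle hxN, ?_⟩
      intro r hr
      exact ((mem_fixSub ρ _ N r).mp (hRX hr)).2 x hxN

end Cfsg.Agent.Lib.Helper37.S4415
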